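import Cfsg.Agent.H775.ExtendCore
import Cfsg.Agent.H802.FusNorm
import Cfsg.Agent.H802.FusAlp
import Cfsg.Agent.H802.FusCentric
import Cfsg.Agent.H802.FusEssConv
import Cfsg.Agent.S5110
import Cfsg.Agent.Prune
set_option linter.all false
prune_inst 0x7f00000000000000000000000000000000000000000000000000000000000000000000000000000000000000000000000000000000000000000000000000000000000000000000000000000000000000003fffffffffffffffffffffffffffbeffbdffffffff
open scoped Cfsg.Agent.FastGrp

/-!
# Pruning an abelian centric class of a saturated fusion system (helper777)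

`F` saturated over `S`, `V ≠ S` abelian, centric and fully normalized in `F`. `prune F V` is the system generated by
the maps of `F` whose source is not conjugate in `F` to a subgroup of `V`.

* `prune_hom_eq` : the maps with such a source are the same as in `F`;
* `prune_isSaturated` : the system is saturated;
* `prune_autGroup_le` : `Aut(V)` in `prune F V` lies in `D`, if `D` contains the elements of `Aut_F(V)` which extend to
  a larger subgroup.
-/

set_option autoImplicit false

namespace Cfsg.Agent.H777.Prune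

open Cfsg Cfsg.FusionSystem Cfsg.Agent.H802 Cfsg.Agent.H775.Ext

variable {Ω : Type*} [Group Ω] {S : Subgroup Ω}

/-- `P` is conjugate in `F` to a subgroup of `V`. -/
def Below (F : FusionSystem S) (V P : Subgroup Ω) : Prop := ∃ φ ∈ F.Hom P, ∀ x : P, φ x ∈ V

variable {F : FusionSystem S} {V : Subgroup Ω} {p : ℕ}

theorem Below.mono {P R : Subgroup Ω} (h : Below F V P) (hR : R ≤ P) : Below F V R := by
  obtain ⟨φ, hφ, hm⟩ := h
  exact ⟨_, restrict_mem hφ hR, fun x => hm _⟩

theorem Below.of_map {P Q : Subgroup Ω} {φ : P →* Ω} (hφ : φ ∈ F.Hom P) (hm : ∀ x : P, φ x ∈ Q)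
    (h : Below F V Q) : Below F V P := by
  obtain ⟨ψ, hψ, hm'⟩ := h
  obtain ⟨χ, hχ, he⟩ := exists_comp hφ hψ hm
  exact ⟨χ, hχ, fun x => by rw [he]; exact hm' _⟩

theorem Below.range {P : Subgroup Ω} {φ : P →* Ω} (hφ : φ ∈ F.Hom P) (h : Below F V P) :
    Below F V φ.range := by
  obtain ⟨ψ, hψ, hr, h1, h2⟩ := exists_inv (Q := φ.range) hφ rfl
  exact Below.of_map hψ (fun x => hr.le ⟨x, rfl⟩) h

theorem Below.card_le [Finite S] (hV : V ≤ S) {P : Subgroup Ω} (h : Below F V P) :
    Nat.card P ≤ Nat.card V := by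
  obtain ⟨φ, hφ, hm⟩ := h
  have : Finite V := finite_of_le hV
  exact Nat.card_le_card_of_injective (fun x : P => (⟨φ x, hm x⟩ : V))
    (fun x y hxy => F.injective_of_mem hφ (congrArg Subtype.val hxy))

theorem Below.comm (hab : ∀ x ∈ V, ∀ y ∈ V, x * y = y * x) {P : Subgroup Ω} (h : Below F V P) :
    ∀ x ∈ P, ∀ y ∈ P, x * y = y * x := by
  obtain ⟨φ, hφ, hm⟩ := h
  intro x hx y hy
  have h1 : φ (⟨x, hx⟩ * ⟨y, hy⟩) = φ (⟨y, hy⟩ * ⟨x, hx⟩) := by
    rw [map_mul, map_mul]
    exact hab _ (hm _) _ (hm _)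
  exact congrArg Subtype.val (F.injective_of_mem hφ h1)

/-- The generating family: restrictions of maps of `F` whose source is not below `V`. -/
def fam (F : FusionSystem S) (V : Subgroup Ω) (P : Subgroup Ω) : Set (P →* Ω) :=
  {φ | ∃ (R : Subgroup Ω) (hR : P ≤ R), ¬ Below F V R ∧ ∃ ψ ∈ F.Hom R,
    ∀ x : P, φ x = ψ (Subgroup.inclusion hR x)}

theorem fam_le {P : Subgroup Ω} {φ : P →* Ω} (h : φ ∈ fam F V P) : φ ∈ F.Hom P := by
  obtain ⟨R, hR, -, ψ, hψ, he⟩ := h
  exact mem_of_apply_eq (restrict_mem hψ hR) he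

theorem isBase_fam (hn : ¬ Below F V S) : IsBase S (fam F V) where
  le h := F.le_of_mem (fam_le h)
  inj h := F.injective_of_mem (fam_le h)
  conj := fun {P g} hP hg => ⟨S, hP, hn, conjHom S g, F.conj_mem le_rfl hg, fun x => rfl⟩
  res := by
    rintro P R φ ⟨R', hR', hn', ψ, hψ, he⟩ hR
    exact ⟨R', hR.trans hR', hn', ψ, hψ, fun x => he (Subgroup.inclusion hR x)⟩
  inv := by
    rintro P φ ⟨R, hR, hnR, ψ, hψ, he⟩
    obtain ⟨χ, hχ, hr, h1, h2⟩ := exists_inv (Q := ψ.range) hψ rfl
    have hle : φ.range ≤ ψ.range := by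
      rintro _ ⟨x, rfl⟩
      rw [he]
      exact ⟨_, rfl⟩
    refine ⟨χ.comp (Subgroup.inclusion hle), ⟨ψ.range, hle, ?_, χ, hχ, fun x => rfl⟩, fun x => ?_⟩
    · intro hb
      exact hnR (Below.of_map (Q := ψ.range) hψ (fun x => ⟨x, rfl⟩) hb)
    · have h3 := h1 (Subgroup.inclusion hR x) ⟨_, rfl⟩
      have h4 : Subgroup.inclusion hle ⟨φ x, ⟨x, rfl⟩⟩ = ⟨ψ (Subgroup.inclusion hR x), ⟨_, rfl⟩⟩ :=
        Subtype.ext (he x)
      show χ (Subgroup.inclusion hle ⟨φ x, ⟨x, rfl⟩⟩) = x
      rw [h4]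
      exact h3

/-- The pruned system. -/
def prune (F : FusionSystem S) (V : Subgroup Ω) (hn : ¬ Below F V S) : FusionSystem S :=
  genSystem (isBase_fam hn)

variable {hn : ¬ Below F V S}

theorem prune_le : prune F V hn ≤ F := genSystem_le _ (fun _ _ h => fam_le h)

theorem mem_prune {P : Subgroup Ω} (h : ¬ Below F V P) {φ : P →* Ω} (hφ : φ ∈ F.Hom P) :
    φ ∈ (prune F V hn).Hom P :=
  Gen.base ⟨P, le_rfl, h, φ, hφ, fun x => rfl⟩

theorem mem_prune_of_restrict {P R : Subgroup Ω} (h : ¬ Below F V R) (hPR : P ≤ R) {φ : P →* Ω}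
    {ψ : R →* Ω} (hψ : ψ ∈ F.Hom R) (he : ∀ x : P, φ x = ψ (Subgroup.inclusion hPR x)) :
    φ ∈ (prune F V hn).Hom P :=
  Gen.base ⟨R, hPR, h, ψ, hψ, he⟩

theorem prune_hom_eq {P : Subgroup Ω} (h : ¬ Below F V P) : (prune F V hn).Hom P = F.Hom P :=
  Set.Subset.antisymm (prune_le P) (fun _ hφ => mem_prune h hφ)

/-- A system containing the generating maps contains the pruned system. -/
theorem prune_le_of {E : FusionSystem S} (h : ∀ P : Subgroup Ω, ¬ Below F V P → F.Hom P ⊆ E.Hom P) :
    prune F V hn ≤ E := by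
  refine genSystem_le _ ?_
  rintro P φ ⟨R, hR, hnR, ψ, hψ, he⟩
  exact mem_of_apply_eq (restrict_mem (h R hnR hψ) hR) he

theorem prune_isConj_iff {P Q : Subgroup Ω} (h : ¬ Below F V P) :
    (prune F V hn).IsConj P Q ↔ F.IsConj P Q := by
  unfold FusionSystem.IsConj
  rw [prune_hom_eq h]

theorem not_below_of_isConj {P Q : Subgroup Ω} (h : ¬ Below F V P) (hPQ : F.IsConj P Q) : ¬ Below F V Q := by
  intro hb
  obtain ⟨φ, hφ, hr⟩ := hPQ
  exact h (Below.of_map hφ (fun x => hr.le ⟨x, rfl⟩) hb)

theorem prune_isCentric_iff {P : Subgroup Ω} (h : ¬ Below F V P) :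
    (prune F V hn).IsCentric P ↔ F.IsCentric P := by
  unfold FusionSystem.IsCentric
  simp only [prune_isConj_iff h]

theorem prune_autGroup_eq {P : Subgroup Ω} (h : ¬ Below F V P) :
    (prune F V hn).autGroup P = F.autGroup P := by
  unfold FusionSystem.autGroup
  rw [prune_hom_eq h]

/-- The maps of `F`, except that with a source not below `V` only those of `E` are kept. -/
def filt (F E : FusionSystem S) (V : Subgroup Ω) : FusionSystem S where
  Hom P := {φ | φ ∈ F.Hom P ∧ (¬ Below F V P → φ ∈ E.Hom P)}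
  le_of_mem h := F.le_of_mem h.1
  injective_of_mem h := F.injective_of_mem h.1
  conj_mem hP hg := ⟨F.conj_mem hP hg, fun _ => E.conj_mem hP hg⟩
  comp_mem := by
    rintro P Q φ ψ ⟨hφ, hφ'⟩ ⟨hψ, hψ'⟩ h
    exact ⟨F.comp_mem hφ hψ h, fun hb => E.comp_mem (hφ' hb) (hψ' (fun hq => hb (Below.of_map hφ h hq))) h⟩
  inv_mem := by
    rintro P φ ⟨hφ, hφ'⟩
    by_cases hb : Below F V P
    · obtain ⟨ψ, hψ, he⟩ := F.inv_mem hφ
      exact ⟨ψ, ⟨hψ, fun h => absurd (Below.range hφ hb) h⟩, he⟩
    · obtain ⟨ψ, hψ, he⟩ := E.inv_mem (hφ' hb)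
      obtain ⟨χ, hχ, he'⟩ := F.inv_mem hφ
      have h1 : ∀ y : φ.range, ψ y = χ y := by
        rintro ⟨_, x, rfl⟩
        rw [he, he']
      exact ⟨ψ, ⟨mem_of_apply_eq hχ h1, fun _ => hψ⟩, he⟩

section Sat

variable [Fact p.Prime] [Finite S]

/-- A centric subgroup of the pruned system which is below `V` is conjugate to `V`. -/
theorem isConj_of_isCentric (hS : IsPGroup p S) (hF : F.IsSaturated p) (hV : F.IsFullyNormalized V)
    (hab : ∀ x ∈ V, ∀ y ∈ V, x * y = y * x) {P : Subgroup Ω}
    (hb : Below F V P) (hc : (prune F V hn).IsCentric P) :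
    (prune F V hn).IsConj P V := by
  have hPS : P ≤ S := hc.1
  have hVS : V ≤ S := hV.1
  have hfV : Finite V := finite_of_le hVS
  have hPne : P ≠ S := by
    rintro rfl
    exact hn hb
  have hlt := card_lt_card_normalizerIn hS hPS hPne
  have hcP : centralizerIn S P ≤ P := hc.2 P (isConj_refl _ hPS)
  -- the normalizer of `P` is not below `V`
  have hnN : ¬ Below F V (normalizerIn S P) := by
    intro h
    have h1 := h.comm hab
    have h2 : normalizerIn S P ≤ P := by
      intro x hx
      refine hcP ⟨hx.1, Subgroup.mem_centralizer_iff.2 ?_⟩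
      intro y hy
      exact h1 y (le_normalizerIn hPS hy) x hx
    have hfP : Finite P := finite_of_le hPS
    have h3 : Nat.card (normalizerIn S P) ≤ Nat.card P := Nat.card_mono (Set.toFinite (P : Set Ω)) h2
    omega
  have hfP : Finite P := finite_of_le hPS
  -- every conjugate is a conjugate in the pruned system, after moving to a fully normalized one
  have key : ∀ Q : Subgroup Ω, F.IsConj P Q → F.IsFullyNormalized Q → (prune F V hn).IsConj P Q := by
    rintro Q ⟨φ, hφ, hr⟩ hQ
    obtain ⟨β, hβ, ψ, hψ, he, hm⟩ := exists_extension_normalizer hS hF hφ hr hQ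
    refine ⟨ψ.comp (Subgroup.inclusion (le_normalizerIn hPS)),
      mem_prune_of_restrict hnN (le_normalizerIn hPS) hψ (fun x => rfl), ?_⟩
    have hφm : ∀ x : P, φ x ∈ Q := fun x => hr.le ⟨x, rfl⟩
    have hle : (ψ.comp (Subgroup.inclusion (le_normalizerIn hPS))).range ≤ Q := by
      rintro _ ⟨x, rfl⟩
      show ψ ⟨x, le_normalizerIn hPS x.2⟩ ∈ Q
      rw [he x (hφm x)]
      exact (β _).2
    have hfQ : Finite Q := finite_of_le hQ.1
    refine Subgroup.eq_of_le_of_card_ge hle ?_
    rw [← isConj_card_eq (isConj_range (restrict_mem hψ (le_normalizerIn hPS))),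
      isConj_card_eq (⟨φ, hφ, hr⟩ : F.IsConj P Q)]
  obtain ⟨φ₀, hφ₀, hm₀⟩ := hb
  -- `|P| = |V|`
  have hcard : Nat.card V ≤ Nat.card P := by
    by_contra hcon
    obtain ⟨Q, hPQ, hQ⟩ := exists_isFullyNormalized hS hF hPS
    have h1 := key Q hPQ hQ
    have h2 : centralizerIn S Q ≤ Q := hc.2 Q h1
    have h3 := isFullyCentralized_of_isFullyNormalized hS hF hQ
    have h4 : F.IsConj Q φ₀.range := isConj_trans (isConj_symm hPQ) (isConj_range hφ₀)
    have h5 := h3.2 _ h4
    have h6 : V ≤ centralizerIn S φ₀.range := by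
      intro x hx
      refine ⟨hVS hx, Subgroup.mem_centralizer_iff.2 ?_⟩
      rintro _ ⟨y, rfl⟩
      exact hab _ (hm₀ y) x hx
    have hf1 : Finite (centralizerIn S φ₀.range) := finite_of_le inf_le_left
    have hf2 : Finite Q := finite_of_le hQ.1
    have h7 := Nat.card_mono (Set.toFinite _) h6
    have h8 := Nat.card_mono (Set.toFinite (Q : Set Ω)) h2
    have h9 := isConj_card_eq hPQ
    have h10 : Nat.card V ≤ Nat.card (centralizerIn S φ₀.range) := h7
    have h11 : Nat.card (centralizerIn S Q) ≤ Nat.card Q := h8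
    omega
  have hr : φ₀.range = V := by
    have hle : φ₀.range ≤ V := by
      rintro _ ⟨x, rfl⟩
      exact hm₀ x
    refine Subgroup.eq_of_le_of_card_ge hle ?_
    rw [← isConj_card_eq (isConj_range hφ₀)]
    exact hcard
  exact key V ⟨φ₀, hφ₀, hr⟩ hV

omit [Finite S] in
theorem prune_autGroup_V_le (hV : V ≤ S) : (prune F V hn).autGroup V ≤ F.autGroup V := by
  intro α hα
  rw [mem_autGroup_iff _ hV] at hα ⊢
  exact prune_le V hα

/-- **The pruned system is saturated.** -/
theorem prune_isSaturated (hS : IsPGroup p S) (hF : F.IsSaturated p) (hV : F.IsFullyNormalized V)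
    (hab : ∀ x ∈ V, ∀ y ∈ V, x * y = y * x) :
    (prune F V hn).IsSaturated p := by
  have hVS : V ≤ S := hV.1
  have hfV : Finite V := finite_of_le hVS
  refine Cfsg.Agent.S5110.result p hS (prune F V hn) {P | (prune F V hn).IsCentric P}
    (fun P hP => hP.1) (fun P hP Q hQ => isCentric_of_isConj hP hQ) ?_ ?_ (fun P h1 h2 => absurd h1 h2)
  · intro P hPc
    have hPS : P ≤ S := hPc.1
    by_cases hb : Below F V P
    · refine ⟨V, isConj_of_isCentric hS hF hV hab hb hPc, ?_, ?_⟩
      · rw [isFullyAutomized_iff_card hS hVS]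
        have h1 := (isFullyAutomized_iff_card hS hVS).1 (isFullyAutomized_of_isFullyNormalized hS hF hV)
        have hle : (prune F V hn).autGroup V ≤ F.autGroup V := prune_autGroup_V_le hVS
        have hdvd : Nat.card ((prune F V hn).autGroup V) ∣ Nat.card (F.autGroup V) :=
          Subgroup.card_dvd_of_le hle
        have hA : autInducedBy S V ≤ (prune F V hn).autGroup V := autInducedBy_le_autGroup _ hVS
        have hdvd2 : Nat.card (autInducedBy S V) ∣ Nat.card ((prune F V hn).autGroup V) :=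
          Subgroup.card_dvd_of_le hA
        have hpos : Nat.card (F.autGroup V) ≠ 0 := Nat.card_pos.ne'
        have hpos2 : Nat.card ((prune F V hn).autGroup V) ≠ 0 := Nat.card_pos.ne'
        have h2 : (Nat.card ((prune F V hn).autGroup V)).factorization p ≤
            (Nat.card (F.autGroup V)).factorization p :=
          (Nat.factorization_le_iff_dvd hpos2 hpos).2 hdvd p
        rw [h1] at hdvd2
        have h3 : (Nat.card (F.autGroup V)).factorization p ≤
            (Nat.card ((prune F V hn).autGroup V)).factorization p :=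
          ((Fact.out : p.Prime).pow_dvd_iff_le_factorization hpos2).1 hdvd2
        rw [h1, le_antisymm h3 h2]
      · refine ⟨hVS, fun R φ hφ hr => ?_⟩
        have hφF : φ ∈ F.Hom R := prune_le R hφ
        have hRS := hom_le hφF
        obtain ⟨ψ, hψ, he⟩ := (isReceptive_of_isFullyNormalized hS hF hV).2 R φ hφF hr
        have hRe := le_extender hRS (hom_apply_mem hφF)
        have hfe : Finite (extender S R φ) := finite_of_le (extender_le _ _ _)
        rcases (Nat.card_mono (Set.toFinite (extender S R φ : Set Ω)) hRe).lt_or_eq with hlt | heq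
        · refine ⟨ψ, mem_prune ?_ hψ, he⟩
          intro hb'
          have h1 := hb'.card_le hVS
          have h2 := isConj_card_eq (⟨φ, hφF, hr⟩ : F.IsConj R V)
          have h3 : Nat.card R < Nat.card (extender S R φ) := hlt
          omega
        · have hRe' : R = extender S R φ := Subgroup.eq_of_le_of_card_ge hRe heq.ge
          refine ⟨ψ, ?_, he⟩
          refine mem_of_eq_source (φ := φ) hRe' hφ (fun x hx hx' => ?_)
          exact he x hx hx'
    · obtain ⟨Q, hPQ, hQn⟩ := exists_isFullyNormalized hS hF hPS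
      have hbQ := not_below_of_isConj hb hPQ
      refine ⟨Q, (prune_isConj_iff hb).2 hPQ, ?_, ?_⟩
      · have h1 := isFullyAutomized_of_isFullyNormalized hS hF hQn
        unfold FusionSystem.IsFullyAutomized at h1 ⊢
        rw [prune_autGroup_eq hbQ]
        exact h1
      · refine ⟨hQn.1, fun R φ hφ hr => ?_⟩
        have hφF : φ ∈ F.Hom R := prune_le R hφ
        have hRS := hom_le hφF
        obtain ⟨ψ, hψ, he⟩ := (isReceptive_of_isFullyNormalized hS hF hQn).2 R φ hφF hr
        refine ⟨ψ, mem_prune ?_ hψ, he⟩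
        intro hb'
        have h1 : Below F V R := hb'.mono (le_extender hRS (hom_apply_mem hφF))
        have h2 := Below.range hφF h1
        rw [hr] at h2
        exact hbQ h2
  · intro E hE
    refine prune_le_of (fun P hb => ?_)
    have h1 : F.Hom P ⊆ (filt F E V).Hom P := by
      refine le_of_centric hS hF (filt F E V) (fun Q hQ hQc _ => ?_) P
      intro α hα
      rw [mem_autGroup_iff _ hQ.1] at hα ⊢
      refine ⟨hα, fun hbQ => ?_⟩
      exact hE Q ((prune_isCentric_iff hbQ).2 hQc) (mem_prune hbQ hα)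
    intro φ hφ
    exact (h1 hφ).2 hb

/-- Upper bound for `Aut(V)` in the pruned system. -/
theorem prune_autGroup_le (hS : IsPGroup p S) (hF : F.IsSaturated p) (hV : F.IsFullyNormalized V)
    (hne : V ≠ S) (D : Subgroup (MulAut V)) (hD : ∀ α ∈ F.autGroup V, Extends F V α → α ∈ D) :
    (prune F V hn).autGroup V ≤ D := by
  have hVS : V ≤ S := hV.1
  have h1 : prune F V hn ≤ dropSystem hS hF hV hne D hD := by
    refine prune_le_of (fun P hb φ hφ => ⟨hφ, fun hc => ?_⟩)
    exfalso
    obtain ⟨ψ, hψ, hr⟩ := isConj_symm hc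
    exact hb ⟨ψ, hψ, fun x => hr.le ⟨x, rfl⟩⟩
  intro α hα
  have h2 := h1 V ((mem_autGroup_iff _ hVS α).1 hα)
  obtain ⟨d, hd, hde⟩ := h2.2 (isConj_refl F hVS) V (by
      ext z
      constructor
      · rintro ⟨x, rfl⟩
        exact (α x).2
      · intro hz
        exact ⟨α.symm ⟨z, hz⟩, by
          show ((α (α.symm ⟨z, hz⟩) : V) : Ω) = z
          rw [MulEquiv.apply_symm_apply]⟩) _ (subtype_nice F hVS) _ (subtype_nice F hVS)
  have : α = d := MulEquiv.ext fun x => Subtype.ext (hde x (α x).2 x.2)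
  rw [this]
  exact hd

end Sat

end Cfsg.Agent.H777.Prune

private theorem dce_c5f4974cbfcf : _root_.True := by
  try have : _root_.True := by simp only [_root_.Cfsg.Agent.H777.Prune.prune.congr_simp]
  exact _root_.True.intro
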